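import Cfsg.Agent.H657.E27Main
import Cfsg.Agent.H650.E27Final
import Cfsg.Agent.H658.IsoZ

/-!
# S4752 from the `Z*_3`-theorem

The statement S4752 with the `Z*`-theorem for the prime 3 (S1938) as a hypothesis.
-/

set_option autoImplicit false
open Cfsg Subgroup

namespace Cfsg.Agent.H657.E27Asm

universe u

theorem assembly {G : Type u} [Group G] [Finite G] (P : Sylow 3 G)
    (hE : Cfsg.IsExtraspecial 3 ↥(P : Subgroup G)) (h27 : Nat.card ↥(P : Subgroup G) = 27)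
    (hexp : ∀ x ∈ (P : Subgroup G), x ^ 3 = 1)
    (hNC : ∀ g ∈ Subgroup.normalizer ((P : Subgroup G) : Set G), ∀ z ∈ (P : Subgroup G),
      (∀ y ∈ (P : Subgroup G), z * y = y * z) → g * z = z * g)
    (M : Ideal Cfsg.AlgInt) (hM : Cfsg.IsPModular 3 M) (k k₀ l e : ℕ)
    (hk : Nat.card ↥(Cfsg.principalBlock M G) = k)
    (hk₀ : Nat.card {χ : Cfsg.IrrCharacter G // χ ∈ Cfsg.principalBlock M G ∧
      Cfsg.blockHeight 3 (Cfsg.principalBlock M G) (χ : G → ℂ) = 0} = k₀)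
    (hl : Cfsg.blockRank 3 (Cfsg.principalBlock M G) = l)
    (he : ((P : Subgroup G) ⊔ Subgroup.centralizer ((P : Subgroup G) : Set G)).relIndex
      (Subgroup.normalizer ((P : Subgroup G) : Set G)) = e)
    (hZ : ∀ x ∈ (P : Subgroup G),
      (∀ g : G, g * x * g⁻¹ ∈ (P : Subgroup G) → g * x * g⁻¹ = x) → Cfsg.InZStar 3 x) :
    (e = 1 → k = 11 ∧ k₀ = 9 ∧ l = 1) ∧ (e = 2 → k = 10 ∧ k₀ = 6 ∧ l = 2) ∧
      (e = 4 → k = 14 ∧ k₀ = 6 ∧ l = 4) ∧ (e = 8 → k = 16 ∧ k₀ = 6 ∧ l = 5) := by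
  obtain ⟨z, hz, hz1, hzc⟩ := E27Main.exists_central hE
  have hzstar := hZ z hz (fun g hg => H658.IsoZ.isolated P hE h27 hexp hNC z hz hzc g hg)
  by_cases h8 : e = 1 ∨ e = 2 ∨ e = 4 ∨ e = 8
  · obtain ⟨k', l', h1, h2, h3, h4⟩ := E27Main.main P hM hE h27 hexp hNC hz hz1 hzc hzstar
      (fun R w _ hd => H650.E27.central M hM R w hd) he h8
    rw [hk] at h2
    rw [hk₀] at h3
    rw [hl] at h4
    refine ⟨?_, ?_, ?_, ?_⟩ <;> intro h <;> rcases h1 with h1 | h1 | h1 | h1 <;> omega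
  · push Not at h8
    exact ⟨fun h => absurd h h8.1, fun h => absurd h h8.2.1, fun h => absurd h h8.2.2.1,
      fun h => absurd h h8.2.2.2⟩

end Cfsg.Agent.H657.E27Asm
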